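import Mathlib
import Cfsg.Prelude.Def_PLocal

/-! The affine subgroup `Qd(p)` of `SL₃` as a set of matrices. -/

set_option autoImplicit false
set_option linter.style.haveILetI false

namespace CfsgLib.Qd

open Matrix

variable (R : Type*) [CommRing R]

/-- The subgroup of `SL₃(R)` of matrices with last row `(0,0,1)`. -/
def QS : Subgroup (SpecialLinearGroup (Fin 3) R) where
  carrier := {M | (M : Matrix (Fin 3) (Fin 3) R) 2 0 = 0 ∧ (M : Matrix (Fin 3) (Fin 3) R) 2 1 = 0 ∧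
    (M : Matrix (Fin 3) (Fin 3) R) 2 2 = 1}
  mul_mem' := by
    rintro a b ⟨h0, h1, h2⟩ ⟨k0, k1, k2⟩
    refine ⟨?_, ?_, ?_⟩ <;>
      simp [SpecialLinearGroup.coe_mul, Matrix.mul_apply, Fin.sum_univ_three, h0, h1, h2, k0, k1, k2]
  one_mem' := by
    refine ⟨?_, ?_, ?_⟩ <;> simp
  inv_mem' := by
    rintro a ⟨h0, h1, h2⟩
    have hdet := a.2
    rw [Matrix.det_fin_three, h0, h1, h2] at hdet
    have hinv : (a⁻¹ : SpecialLinearGroup (Fin 3) R).1 = Matrix.adjugate a.1 := rfl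
    refine ⟨?_, ?_, ?_⟩
    · change (a⁻¹ : SpecialLinearGroup (Fin 3) R).1 2 0 = 0
      rw [hinv, Matrix.adjugate_fin_three]
      simp [h0, h1, h2]
    · change (a⁻¹ : SpecialLinearGroup (Fin 3) R).1 2 1 = 0
      rw [hinv, Matrix.adjugate_fin_three]
      simp [h0, h1, h2]
    · change (a⁻¹ : SpecialLinearGroup (Fin 3) R).1 2 2 = 1
      rw [hinv, Matrix.adjugate_fin_three]
      simp [h0, h1, h2]
      linear_combination hdet

theorem mem_QS {M : SpecialLinearGroup (Fin 3) R} : M ∈ QS R ↔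
    (M : Matrix (Fin 3) (Fin 3) R) 2 0 = 0 ∧ (M : Matrix (Fin 3) (Fin 3) R) 2 1 = 0 ∧
    (M : Matrix (Fin 3) (Fin 3) R) 2 2 = 1 := Iff.rfl

theorem qd_eq (p : ℕ) : Cfsg.qd p = QS (ZMod p) := by
  have : {M : SpecialLinearGroup (Fin 3) (ZMod p) | (M : Matrix (Fin 3) (Fin 3) (ZMod p)) 2 0 = 0 ∧
    (M : Matrix (Fin 3) (Fin 3) (ZMod p)) 2 1 = 0 ∧ (M : Matrix (Fin 3) (Fin 3) (ZMod p)) 2 2 = 1} =
      (QS (ZMod p) : Set (SpecialLinearGroup (Fin 3) (ZMod p))) := rfl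
  unfold Cfsg.qd
  rw [this, Subgroup.closure_eq]

theorem mem_qd {p : ℕ} {M : SpecialLinearGroup (Fin 3) (ZMod p)} : M ∈ Cfsg.qd p ↔
    (M : Matrix (Fin 3) (Fin 3) (ZMod p)) 2 0 = 0 ∧ (M : Matrix (Fin 3) (Fin 3) (ZMod p)) 2 1 = 0 ∧
    (M : Matrix (Fin 3) (Fin 3) (ZMod p)) 2 2 = 1 := by
  rw [qd_eq]; exact Iff.rfl

end CfsgLib.Qd
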