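import Mathlib
import Cfsg.Agent.Lib.Qd.Basic
import Cfsg.Agent.Lib.ClassGeo.GL2Sylow
import Cfsg.Agent.Lib.H3.FusEss2
import Cfsg.Agent.Lib.PLocal.CoreLift
import Cfsg.Prelude.Def_LocalEven

/-! Structure of `Qd` over a finite field. -/

set_option autoImplicit false
set_option linter.style.haveILetI false
set_option linter.unusedSectionVars false
set_option linter.unusedSimpArgs false

namespace CfsgLib.Qd

open Matrix

variable {F : Type*} [Field F]

theorem qdOver_eq : Cfsg.qdOver F = QS F := by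
  have : {M : SpecialLinearGroup (Fin 3) F | (M : Matrix (Fin 3) (Fin 3) F) 2 0 = 0 ∧
    (M : Matrix (Fin 3) (Fin 3) F) 2 1 = 0 ∧ (M : Matrix (Fin 3) (Fin 3) F) 2 2 = 1} =
      (QS F : Set (SpecialLinearGroup (Fin 3) F)) := rfl
  unfold Cfsg.qdOver
  rw [this, Subgroup.closure_eq]

theorem mem_qdOver {M : SpecialLinearGroup (Fin 3) F} : M ∈ Cfsg.qdOver F ↔
    (M : Matrix (Fin 3) (Fin 3) F) 2 0 = 0 ∧ (M : Matrix (Fin 3) (Fin 3) F) 2 1 = 0 ∧
    (M : Matrix (Fin 3) (Fin 3) F) 2 2 = 1 := by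
  rw [qdOver_eq]; exact Iff.rfl

/-- The group we work in. -/
abbrev QQ (F : Type*) [Field F] := ↥(Cfsg.qdOver F)

/-- The entries of an element of `Qd`. -/
abbrev ent (M : QQ F) (i j : Fin 3) : F := ((M : SpecialLinearGroup (Fin 3) F) : Matrix (Fin 3) (Fin 3) F) i j

theorem ent_20 (M : QQ F) : ent M 2 0 = 0 := (mem_qdOver.1 M.2).1
theorem ent_21 (M : QQ F) : ent M 2 1 = 0 := (mem_qdOver.1 M.2).2.1
theorem ent_22 (M : QQ F) : ent M 2 2 = 1 := (mem_qdOver.1 M.2).2.2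

theorem ent_mul (M N : QQ F) (i j : Fin 3) :
    ent (M * N) i j = ent M i 0 * ent N 0 j + ent M i 1 * ent N 1 j + ent M i 2 * ent N 2 j := by
  change ((M : SpecialLinearGroup (Fin 3) F).1 * (N : SpecialLinearGroup (Fin 3) F).1) i j = _
  rw [Matrix.mul_apply, Fin.sum_univ_three]

theorem ent_one (i j : Fin 3) : ent (1 : QQ F) i j = if i = j then 1 else 0 := by
  change (1 : Matrix (Fin 3) (Fin 3) F) i j = _
  rw [Matrix.one_apply]

@[ext] theorem QQ_ext {M N : QQ F} (h : ∀ i j, ent M i j = ent N i j) : M = N := by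
  apply Subtype.ext
  apply Subtype.ext
  ext i j
  exact h i j

theorem QQ_ext' {M N : QQ F} (h00 : ent M 0 0 = ent N 0 0) (h01 : ent M 0 1 = ent N 0 1)
    (h02 : ent M 0 2 = ent N 0 2) (h10 : ent M 1 0 = ent N 1 0) (h11 : ent M 1 1 = ent N 1 1)
    (h12 : ent M 1 2 = ent N 1 2) : M = N := by
  apply QQ_ext
  intro i j
  fin_cases i <;> fin_cases j
  · exact h00
  · exact h01
  · exact h02
  · exact h10
  · exact h11
  · exact h12
  · change ent M 2 0 = ent N 2 0; rw [ent_20, ent_20]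
  · change ent M 2 1 = ent N 2 1; rw [ent_21, ent_21]
  · change ent M 2 2 = ent N 2 2; rw [ent_22, ent_22]

theorem det_block (M : QQ F) : ent M 0 0 * ent M 1 1 - ent M 0 1 * ent M 1 0 = 1 := by
  have h := (M : SpecialLinearGroup (Fin 3) F).2
  rw [Matrix.det_fin_three] at h
  have h0 := ent_20 M
  have h1 := ent_21 M
  have h2 := ent_22 M
  simp only [ent] at h0 h1 h2
  rw [h0, h1, h2] at h
  simp only [ent]
  linear_combination h

/-- The matrix of block form. -/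
def blk (a b c d x y : F) (h : a * d - b * c = 1) : QQ F :=
  ⟨⟨!![a, b, x; c, d, y; 0, 0, 1], by
      rw [Matrix.det_fin_three]; simp; linear_combination h⟩,
      mem_qdOver.2 ⟨by simp, by simp, by simp⟩⟩

@[simp] theorem ent_blk (a b c d x y : F) (h : a * d - b * c = 1) (i j : Fin 3) :
    ent (blk a b c d x y h) i j = (!![a, b, x; c, d, y; 0, 0, 1] : Matrix (Fin 3) (Fin 3) F) i j := rfl

theorem ent_inv (M : QQ F) : ent M⁻¹ 0 0 = ent M 1 1 ∧ ent M⁻¹ 0 1 = - ent M 0 1 ∧ ent M⁻¹ 1 0 = - ent M 1 0 ∧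
    ent M⁻¹ 1 1 = ent M 0 0 ∧ ent M⁻¹ 0 2 = ent M 0 1 * ent M 1 2 - ent M 0 2 * ent M 1 1 ∧
    ent M⁻¹ 1 2 = ent M 0 2 * ent M 1 0 - ent M 0 0 * ent M 1 2 := by
  have h0 := ent_20 M
  have h1 := ent_21 M
  have h2 := ent_22 M
  have hinv : (((M⁻¹ : QQ F) : SpecialLinearGroup (Fin 3) F)).1 =
      Matrix.adjugate (M : SpecialLinearGroup (Fin 3) F).1 := rfl
  simp only [ent] at h0 h1 h2 ⊢
  rw [hinv, Matrix.adjugate_fin_three]
  simp [h0, h1, h2]
  ring

/-- The top-left block. -/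
def rhoF (M : QQ F) : SpecialLinearGroup (Fin 2) F :=
  ⟨!![ent M 0 0, ent M 0 1; ent M 1 0, ent M 1 1], by
    rw [Matrix.det_fin_two_of]; exact det_block M⟩

/-- The top-left block, as a homomorphism. -/
def rho : QQ F →* SpecialLinearGroup (Fin 2) F where
  toFun := rhoF
  map_one' := by
    apply Subtype.ext
    change (!![ent (1 : QQ F) 0 0, ent (1 : QQ F) 0 1; ent (1 : QQ F) 1 0, ent (1 : QQ F) 1 1] : Matrix (Fin 2) (Fin 2) F) = 1
    ext i j
    fin_cases i <;> fin_cases j <;> simp [ent_one]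
  map_mul' M N := by
    apply Subtype.ext
    change (!![ent (M * N) 0 0, ent (M * N) 0 1; ent (M * N) 1 0, ent (M * N) 1 1] : Matrix (Fin 2) (Fin 2) F) =
      (!![ent M 0 0, ent M 0 1; ent M 1 0, ent M 1 1] : Matrix (Fin 2) (Fin 2) F) * !![ent N 0 0, ent N 0 1; ent N 1 0, ent N 1 1]
    ext i j
    fin_cases i <;> fin_cases j <;>
      simp [ent_mul, ent_20, ent_21, Matrix.mul_apply, Fin.sum_univ_two]

theorem rho_apply (M : QQ F) (i j : Fin 2) :
    ((rho M : SpecialLinearGroup (Fin 2) F) : Matrix (Fin 2) (Fin 2) F) i j =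
      ent M (Fin.castLE (by omega) i) (Fin.castLE (by omega) j) := by
  fin_cases i <;> fin_cases j <;> rfl

/-- The section. -/
def sec : SpecialLinearGroup (Fin 2) F →* QQ F where
  toFun A := blk (A.1 0 0) (A.1 0 1) (A.1 1 0) (A.1 1 1) 0 0 (by
    have := A.2; rwa [Matrix.det_fin_two] at this)
  map_one' := by
    apply QQ_ext' <;> simp [ent_one]
  map_mul' A B := by
    apply QQ_ext' <;>
      simp [ent_mul, SpecialLinearGroup.coe_mul, Matrix.mul_apply, Fin.sum_univ_two]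

theorem ent_sec (A : SpecialLinearGroup (Fin 2) F) :
    ent (sec A) 0 0 = A.1 0 0 ∧ ent (sec A) 0 1 = A.1 0 1 ∧ ent (sec A) 1 0 = A.1 1 0 ∧
    ent (sec A) 1 1 = A.1 1 1 ∧ ent (sec A) 0 2 = 0 ∧ ent (sec A) 1 2 = 0 := by
  refine ⟨rfl, rfl, rfl, rfl, rfl, rfl⟩

theorem rho_sec (A : SpecialLinearGroup (Fin 2) F) : rho (sec A) = A := by
  apply Subtype.ext
  ext i j
  fin_cases i <;> fin_cases j <;> rfl

theorem rho_surj : Function.Surjective (rho (F := F)) := fun A => ⟨sec A, rho_sec A⟩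

theorem rho_val (M : QQ F) : (rho M).1 = !![ent M 0 0, ent M 0 1; ent M 1 0, ent M 1 1] := rfl

theorem mem_ker_rho {M : QQ F} : M ∈ (rho (F := F)).ker ↔
    ent M 0 0 = 1 ∧ ent M 0 1 = 0 ∧ ent M 1 0 = 0 ∧ ent M 1 1 = 1 := by
  rw [MonoidHom.mem_ker]
  constructor
  · intro h
    have h2 : (!![ent M 0 0, ent M 0 1; ent M 1 0, ent M 1 1] : Matrix (Fin 2) (Fin 2) F) = 1 := congrArg Subtype.val h
    refine ⟨?_, ?_, ?_, ?_⟩
    · simpa using congrFun (congrFun h2 0) 0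
    · simpa using congrFun (congrFun h2 0) 1
    · simpa using congrFun (congrFun h2 1) 0
    · simpa using congrFun (congrFun h2 1) 1
  · rintro ⟨a, b, c, d⟩
    apply Subtype.ext
    change (!![ent M 0 0, ent M 0 1; ent M 1 0, ent M 1 1] : Matrix (Fin 2) (Fin 2) F) = 1
    rw [a, b, c, d]
    ext i j
    fin_cases i <;> fin_cases j <;> simp

/-- The translation with vector `(x, y)`. -/
def tr (x y : F) : QQ F := blk 1 0 0 1 x y (by ring)

theorem mem_ker_iff_tr {M : QQ F} : M ∈ (rho (F := F)).ker ↔ M = tr (ent M 0 2) (ent M 1 2) := by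
  rw [mem_ker_rho]
  constructor
  · rintro ⟨a, b, c, d⟩
    apply QQ_ext' <;> simp [tr, a, b, c, d]
  · intro h
    rw [h]
    simp [tr]

theorem tr_mul (x y x' y' : F) : tr x y * tr x' y' = tr (x + x') (y + y') := by
  apply QQ_ext' <;> simp [tr, ent_mul] <;> ring

theorem tr_mem_ker (x y : F) : tr x y ∈ (rho (F := F)).ker := by
  rw [mem_ker_rho]
  simp [tr]

/-- Conjugation of a translation. -/
theorem conj_tr (M : QQ F) (x y : F) : M * tr x y * M⁻¹ =
    tr (ent M 0 0 * x + ent M 0 1 * y) (ent M 1 0 * x + ent M 1 1 * y) := by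
  obtain ⟨h1, h2, h3, h4, h5, h6⟩ := ent_inv M
  have hd := det_block M
  apply QQ_ext'
  · simp [tr, ent_mul, ent_20, ent_21, ent_22, h1, h2, h3, h4, h5, h6]; linear_combination hd
  · simp [tr, ent_mul, ent_20, ent_21, ent_22, h1, h2, h3, h4, h5, h6]; ring
  · simp [tr, ent_mul, ent_20, ent_21, ent_22, h1, h2, h3, h4, h5, h6]; linear_combination (-ent M 0 2) * hd
  · simp [tr, ent_mul, ent_20, ent_21, ent_22, h1, h2, h3, h4, h5, h6]; ring
  · simp [tr, ent_mul, ent_20, ent_21, ent_22, h1, h2, h3, h4, h5, h6]; linear_combination hd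
  · simp [tr, ent_mul, ent_20, ent_21, ent_22, h1, h2, h3, h4, h5, h6]; linear_combination (-ent M 1 2) * hd
end CfsgLib.Qd

namespace CfsgLib.Qd

open Matrix

variable {F : Type*} [Field F]

/-- `Qd` as a set: a product. -/
def qqEquiv : QQ F ≃ SpecialLinearGroup (Fin 2) F × F × F where
  toFun M := (rho M, ent M 0 2, ent M 1 2)
  invFun t := blk (t.1.1 0 0) (t.1.1 0 1) (t.1.1 1 0) (t.1.1 1 1) t.2.1 t.2.2 (by
    have := t.1.2; rwa [Matrix.det_fin_two] at this)
  left_inv M := by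
    apply QQ_ext' <;> simp [rho_val]
  right_inv t := by
    obtain ⟨A, x, y⟩ := t
    refine Prod.ext ?_ (Prod.ext ?_ ?_)
    · apply Subtype.ext
      rw [rho_val]
      ext i j
      fin_cases i <;> fin_cases j <;> simp
    · simp
    · simp

/-- Unipotent part. -/
def UU (F : Type*) [Field F] : Subgroup (QQ F) where
  carrier := {M | ent M 0 0 = 1 ∧ ent M 1 0 = 0 ∧ ent M 1 1 = 1}
  mul_mem' := by
    rintro a b ⟨a1, a2, a3⟩ ⟨b1, b2, b3⟩
    refine ⟨?_, ?_, ?_⟩ <;> simp [ent_mul, a1, a2, a3, b1, b2, b3, ent_20, ent_21]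
  one_mem' := by
    refine ⟨?_, ?_, ?_⟩ <;> simp [ent_one]
  inv_mem' := by
    rintro a ⟨a1, a2, a3⟩
    obtain ⟨h1, h2, h3, h4, h5, h6⟩ := ent_inv a
    refine ⟨?_, ?_, ?_⟩
    · rw [h1, a3]
    · rw [h3, a2, neg_zero]
    · rw [h4, a1]

theorem mem_UU {M : QQ F} : M ∈ UU F ↔ ent M 0 0 = 1 ∧ ent M 1 0 = 0 ∧ ent M 1 1 = 1 := Iff.rfl

/-- `UU` as a set. -/
def uuEquiv : UU F ≃ F × F × F where
  toFun M := (ent M.1 0 1, ent M.1 0 2, ent M.1 1 2)
  invFun t := ⟨blk 1 t.1 0 1 t.2.1 t.2.2 (by ring), by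
    rw [mem_UU]; simp⟩
  left_inv M := by
    obtain ⟨M, h1, h2, h3⟩ := M
    apply Subtype.ext
    apply QQ_ext' <;> simp [h1, h2, h3]
  right_inv t := by
    obtain ⟨a, x, y⟩ := t
    simp

/-- Translations as a set. -/
def trEquiv : (rho (F := F)).ker ≃ F × F where
  toFun M := (ent M.1 0 2, ent M.1 1 2)
  invFun t := ⟨tr t.1 t.2, tr_mem_ker _ _⟩
  left_inv M := by
    obtain ⟨M, h⟩ := M
    apply Subtype.ext
    exact (mem_ker_iff_tr.1 h).symm
  right_inv t := by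
    obtain ⟨x, y⟩ := t
    simp [tr]

variable [Fintype F] {p : ℕ} [hp : Fact p.Prime] [CharP F p]

theorem card_QQ : Nat.card (QQ F) = Fintype.card F ^ 3 * (Fintype.card F ^ 2 - 1) := by
  rw [Nat.card_congr qqEquiv, Nat.card_prod, Nat.card_prod, CfsgLib.ClassGeo.card_SL2, Nat.card_eq_fintype_card]
  ring

theorem card_UU : Nat.card (UU F) = Fintype.card F ^ 3 := by
  rw [Nat.card_congr uuEquiv, Nat.card_prod, Nat.card_prod, Nat.card_eq_fintype_card]
  ring

theorem card_ker : Nat.card (rho (F := F)).ker = Fintype.card F ^ 2 := by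
  rw [Nat.card_congr trEquiv, Nat.card_prod, Nat.card_eq_fintype_card]
  ring

include hp in
theorem exists_pow : ∃ n : ℕ, 0 < n ∧ Fintype.card F = p ^ n := by
  obtain ⟨n, hn1, hn⟩ := FiniteField.card F p
  exact ⟨n, n.pos, hn⟩

theorem isPGroup_UU : IsPGroup p (UU F) := by
  obtain ⟨n, hn0, hn⟩ := exists_pow (F := F) (p := p)
  apply IsPGroup.of_card (n := n * 3)
  rw [card_UU, hn, pow_mul]

theorem isPGroup_ker : IsPGroup p (rho (F := F)).ker := by
  obtain ⟨n, hn0, hn⟩ := exists_pow (F := F) (p := p)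
  apply IsPGroup.of_card (n := n * 2)
  rw [card_ker, hn, pow_mul]

theorem not_dvd_index_UU : ¬ p ∣ (UU F).index := by
  obtain ⟨n, hn0, hn⟩ := exists_pow (F := F) (p := p)
  have h1 := (UU F).card_mul_index
  rw [card_UU, card_QQ] at h1
  have hq : 0 < Fintype.card F ^ 3 := pow_pos Fintype.card_pos _
  have h2 : (UU F).index = Fintype.card F ^ 2 - 1 := Nat.eq_of_mul_eq_mul_left hq h1
  rw [h2]
  intro hd
  have hd2 : p ∣ Fintype.card F ^ 2 := by
    rw [hn]; exact dvd_pow (dvd_pow_self p hn0.ne') (by norm_num)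
  have hpos : 1 ≤ Fintype.card F ^ 2 := Nat.one_le_iff_ne_zero.2 (pow_ne_zero _ Fintype.card_ne_zero)
  have h3 : p ∣ 1 := by
    have := (Nat.dvd_sub hd2 hd)
    rwa [Nat.sub_sub_self hpos] at this
  exact hp.out.one_lt.ne' (Nat.dvd_one.1 h3)

/-- The Sylow subgroup. -/
noncomputable def sylUU : Sylow p (QQ F) := (isPGroup_UU (F := F) (p := p)).toSylow not_dvd_index_UU

theorem coe_sylUU : ((sylUU (F := F) (p := p) : Sylow p (QQ F)) : Subgroup (QQ F)) = UU F := rfl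

theorem pCore_eq : Cfsg.pCore p (QQ F) = (rho (F := F)).ker := by
  apply le_antisymm
  · intro M hM
    have hn : (Cfsg.pCore p (QQ F)).Normal := CfsgLib.PLocal.pCore_normal'
    have hle : Cfsg.pCore p (QQ F) ≤ UU F := CfsgLib.PLocal.pCore_le_sylow (sylUU (F := F) (p := p))
    have h1 := hle hM
    have hw : (0 : F) * 0 - 1 * (-1) = 1 := by ring
    obtain ⟨w, hw'⟩ : ∃ w : QQ F, w = blk 0 1 (-1) 0 0 0 hw := ⟨_, rfl⟩
    have w00 : ent w 0 0 = 0 := by rw [hw']; simp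
    have w01 : ent w 0 1 = 1 := by rw [hw']; simp
    have w02 : ent w 0 2 = 0 := by rw [hw']; simp
    have w10 : ent w 1 0 = -1 := by rw [hw']; simp
    have w11 : ent w 1 1 = 0 := by rw [hw']; simp
    have w12 : ent w 1 2 = 0 := by rw [hw']; simp
    have h2 : w * M * w⁻¹ ∈ UU F := hle (hn.conj_mem M hM w)
    obtain ⟨a1, a2, a3⟩ := mem_UU.1 h1
    obtain ⟨b1, b2, b3⟩ := mem_UU.1 h2
    obtain ⟨h3, h4, h5, h6, h7, h8⟩ := ent_inv w
    rw [mem_ker_rho]
    refine ⟨a1, ?_, a2, a3⟩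
    have h9 := b2
    simp [ent_mul, w00, w01, w02, w10, w11, w12, h3, h4, h5, h6, ent_20, ent_21, ent_22, a1, a2, a3] at h9
    exact h9
  · exact CfsgLib.PLocal.le_pCore_of_normal _ (MonoidHom.normal_ker _) isPGroup_ker

end CfsgLib.Qd
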