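import Cfsg.Agent.Lib.Qd.Over

/-! The Sylow subgroup of `Qd(p)`. -/

set_option autoImplicit false
set_option linter.style.haveILetI false
set_option linter.unusedSectionVars false
set_option linter.unusedSimpArgs false

namespace CfsgLib.Qd

open Matrix

variable {F : Type*} [Field F] [Fintype F] {p : ℕ} [hp : Fact p.Prime] [CharP F p]

include hp in
theorem uni_pow_gen (hp2 : p ≠ 2) (g : SpecialLinearGroup (Fin 3) F)
    (a1 : (g : Matrix (Fin 3) (Fin 3) F) 1 0 = 0) (a2 : (g : Matrix (Fin 3) (Fin 3) F) 2 0 = 0)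
    (a3 : (g : Matrix (Fin 3) (Fin 3) F) 2 1 = 0) (a4 : (g : Matrix (Fin 3) (Fin 3) F) 0 0 = 1)
    (a5 : (g : Matrix (Fin 3) (Fin 3) F) 1 1 = 1) (a6 : (g : Matrix (Fin 3) (Fin 3) F) 2 2 = 1) : g ^ p = 1 := by
  have hp3 : 3 ≤ p := by
    have := hp.out.two_le
    omega
  apply Subtype.ext
  rw [Matrix.SpecialLinearGroup.coe_pow, Matrix.SpecialLinearGroup.coe_one]
  set G : Matrix (Fin 3) (Fin 3) F := (g : Matrix (Fin 3) (Fin 3) F) with hG
  set N : Matrix (Fin 3) (Fin 3) F := G - 1 with hN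
  have hGN : G = N + 1 := by rw [hN]; abel
  have h3 : N ^ 3 = 0 := by
    have e10 : N 1 0 = 0 := by simp [hN, a1]
    have e20 : N 2 0 = 0 := by simp [hN, a2]
    have e21 : N 2 1 = 0 := by simp [hN, a3]
    have e00 : N 0 0 = 0 := by simp [hN, a4]
    have e11 : N 1 1 = 0 := by simp [hN, a5]
    have e22 : N 2 2 = 0 := by simp [hN, a6]
    rw [pow_succ, pow_two]
    ext i j
    fin_cases i <;> fin_cases j <;> simp [Matrix.mul_apply, Fin.sum_univ_three, e10, e20, e21, e00, e11, e22]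
  have hNp : N ^ p = 0 := by
    have h4 : N ^ p = N ^ (p - 3) * N ^ 3 := by
      rw [← pow_add, Nat.sub_add_cancel hp3]
    rw [h4, h3, mul_zero]
  haveI : CharP (Matrix (Fin 3) (Fin 3) F) p := inferInstance
  rw [hGN]
  have := add_pow_char_of_commute (R := Matrix (Fin 3) (Fin 3) F) p (Commute.one_right N)
  rw [this, hNp]
  simp

theorem UU_pow (hp2 : p ≠ 2) (M : QQ F) (hM : M ∈ UU F) : M ^ p = 1 := by
  obtain ⟨h1, h2, h3⟩ := mem_UU.1 hM
  exact Subtype.ext (uni_pow_gen hp2 M.1 h2 (ent_20 M) (ent_21 M) h1 h3 (ent_22 M))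

theorem sylow_props (hq : Fintype.card F = p) (hp2 : p ≠ 2) (P : Sylow p (QQ F)) :
    Cfsg.IsExtraspecial p ↥P ∧ Nat.card P = p ^ 3 ∧ Monoid.exponent ↥P = p := by
  let S : Sylow p (QQ F) := sylUU
  let e : (P : Subgroup (QQ F)) ≃* (S : Subgroup (QQ F)) := Sylow.equiv P S
  have hcard : Nat.card P = p ^ 3 := by
    change Nat.card (P : Subgroup (QQ F)) = p ^ 3
    rw [Nat.card_congr e.toEquiv]
    change Nat.card (UU F) = _
    rw [card_UU, hq]
  have hcomm : ¬ ∀ x y : P, x * y = y * x := by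
    intro h
    have hab : (1 : F) * 1 - 1 * 0 = 1 := by ring
    have hab' : (1 : F) * 1 - 0 * 0 = 1 := by ring
    let a : QQ F := blk 1 1 0 1 0 0 hab
    let b : QQ F := blk 1 0 0 1 0 1 hab'
    have ha : a ∈ UU F := by rw [mem_UU]; simp [a]
    have hb : b ∈ UU F := by rw [mem_UU]; simp [b]
    have h1 := h (e.symm ⟨a, ha⟩) (e.symm ⟨b, hb⟩)
    have h2 := congrArg e h1
    rw [map_mul, map_mul, MulEquiv.apply_symm_apply, MulEquiv.apply_symm_apply] at h2
    have h3 : a * b = b * a := congrArg Subtype.val h2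
    have h4 := congrArg (fun M : QQ F => ent M 0 2) h3
    simp [ent_mul, a, b] at h4
  have hpow : ∀ x : P, x ^ p = 1 := by
    intro x
    have h1 : (e x) ^ p = 1 := by
      apply Subtype.ext
      exact UU_pow hp2 _ (e x).2
    have h2 := congrArg e.symm h1
    rw [map_pow, MulEquiv.symm_apply_apply, map_one] at h2
    exact h2
  refine ⟨CfsgLib.FusEss.extraspecial_of_nonab p hcard hcomm, hcard, ?_⟩
  haveI : Nontrivial P := by
    rw [← Finite.one_lt_card_iff_nontrivial, hcard]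
    exact Nat.one_lt_pow (by norm_num) hp.out.one_lt
  rw [Monoid.exponent_eq_prime_iff hp.out]
  intro g hg
  exact orderOf_eq_prime (hpow g) hg

end CfsgLib.Qd
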